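import Cfsg.Agent.H153.Dl.RFi23

/-!
# An element of order 27 in `Fi23` : the words (helper153)

Generated data.
-/

set_option autoImplicit false
set_option maxRecDepth 100000
set_option Elab.async false

namespace Cfsg.Agent.H153.Dl.D23

open Cfsg Cfsg.Agent.Lib.PermNetPt Cfsg.Agent.H153.Dl Cfsg.Agent.H153.Dl.PR

def xw : List LThreeFi23.Lt := [.e, .g, .h, .d, .j, .f, .h, .c, .e, .i, .b, .a, .f, .c, .d, .c]

def u : List LThreeFi23.Lt := [.f, .e]

end Cfsg.Agent.H153.Dl.D23
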